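import Cfsg.Agent.H383.Rg.Fp
import Cfsg.Agent.H659.Rs.Box2
import Cfsg.Agent.H883.Bridge

/-!
# S3691: the bridge between the boxes of helper659 and the frame of helper383 (helper242)

* `realB hm e : Real T (Iso fun x y => sympBilin m F x y)`;  `sd hm e hfac : Sd T (sympBilin m F)`
* `pre_eq : (sd hm e hfac).pre X = preS e X`
* `isQ`, `E_le_pre` : `omegaGL Q ≤ preG e X → E (isQ hQ hp).toQ ≤ (sd hm e hfac).pre X`
-/

set_option autoImplicit false

namespace Cfsg.Agent.H242.Rg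

open Cfsg Module Matrix Cfsg.Geo
open Cfsg.Agent.LieClassical.OrthCore Cfsg.Agent.LieClassical.OrthTrans
open Cfsg.Agent.LieClassical.OrthFinite (glEquiv glEquiv_apply)
open Cfsg.Agent.ClassicalGeometry.SympBasic
open Cfsg.Agent.H454.Reg Cfsg.Agent.H449.Reg Cfsg.Agent.H925.Rs Cfsg.Agent.H383.Rg Cfsg.Agent.H659.Rs
open Cfsg.Agent.BpCl (Iso)

universe u

variable {G : Type u} [Group G] {T : Subgroup G} {F : Type} [Field F] [Fintype F] {m : ℕ}

set_option linter.unusedSectionVars false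

/-- characteristic 2 -/
theorem charP_two {f : ℕ} (hF : Fintype.card F = 2 ^ f) : CharP F 2 := by
  have hp : (ringChar F).Prime := CharP.char_is_prime F (ringChar F)
  have hd : ringChar F ∣ Fintype.card F := by
    obtain ⟨n, -, hn⟩ := FiniteField.card F (ringChar F)
    rw [hn]
    exact dvd_pow_self _ n.ne_zero
  rw [hF] at hd
  have h2 : ringChar F = 2 := (Nat.prime_dvd_prime_iff_eq hp Nat.prime_two).1 (hp.dvd_of_dvd_pow hd)
  exact h2 ▸ ringChar.charP F

theorem isos_eq : Isos (sympBilin m F) = Iso (F := F) (fun x y => sympBilin m F x y) := rfl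

/-- the realisation -/
noncomputable def realB [T.Normal] (hm : 3 ≤ m) (e : T ≃* PSp m F) :
    Real T (Iso (F := F) fun x y => sympBilin m F x y) := Cfsg.Agent.H925.Rs.real hm e

theorem realB_apply [T.Normal] (hm : 3 ≤ m) (e : T ≃* PSp m F) (x : Iso (F := F) fun x y => sympBilin m F x y) :
    (realB hm e).π x = prS e x := rfl

theorem alt (v : Fin m ⊕ Fin m → F) : sympBilin m F v v = 0 := sympForm_self v

theorem nd (u : Fin m ⊕ Fin m → F) (h : ∀ v, sympBilin m F u v = 0) : u = 0 := eq_zero_of_forall_sympForm_right h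

theorem ne (hm : 3 ≤ m) : ∃ v : Fin m ⊕ Fin m → F, v ≠ 0 := by
  refine ⟨Pi.single (Sum.inr ⟨0, by omega⟩) 1, fun h => ?_⟩
  have h1 := congrFun h (Sum.inr ⟨0, by omega⟩)
  rw [Pi.single_eq_same, Pi.zero_apply] at h1
  exact one_ne_zero h1

/-- **the frame of helper383** -/
noncomputable def sd [CharP F 2] (hm : 3 ≤ m) (e : T ≃* PSp m F) {X Y : Subgroup G} (hfac : Fac T X Y) :
    Sd T (sympBilin m F) :=
  haveI := hfac.normal
  Sd.ofFac (realB hm e) alt nd (ne hm) hfac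

theorem pre_eq [CharP F 2] (hm : 3 ≤ m) (e : T ≃* PSp m F) {X Y : Subgroup G} (hfac : Fac T X Y) (L : Subgroup G) :
    (sd hm e hfac).pre L = preS e L := rfl

/-- the quadratic form -/
theorem isQ [CharP F 2] {Q : (Fin m ⊕ Fin m → F) → F} (hQ : IsNondegenerateQuadraticForm Q)
    (hp : ∀ u v, QuadraticMap.polar Q u v = sympForm m F u v) : IsQ (sympBilin m F) Q where
  add x y := by
    rw [sympBilin_apply, ← hp]
    unfold QuadraticMap.polar
    ring
  smul a x := hQ.smul a x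

theorem coe_toQ [CharP F 2] {Q : (Fin m ⊕ Fin m → F) → F} (hq : IsQ (sympBilin m F) Q) : ⇑hq.toQ = Q := rfl

theorem good [CharP F 2] (hm : 3 ≤ m) {Q : (Fin m ⊕ Fin m → F) → F} (hq : IsQ (sympBilin m F) Q) : Good hq.toQ :=
  H883.Bridge.good_of_card (hq.nondeg nd) (by rw [Fintype.card_sum, Fintype.card_fin]; omega)

/-- `omegaGL Q` is `E Q` -/
theorem map_omegaGL [CharP F 2] (hm : 3 ≤ m) {Q : (Fin m ⊕ Fin m → F) → F} (hq : IsQ (sympBilin m F) Q) :
    (omegaGL Q).map (glEquiv (Fin m ⊕ Fin m) F).toMonoidHom = E hq.toQ :=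
  H883.Bridge.map_omegaGL_eq_E (good hm hq)

/-- **the bridge** -/
theorem E_le_preS [CharP F 2] (hm : 3 ≤ m) {e : T ≃* PSp m F} {X : Subgroup G} {Q : (Fin m ⊕ Fin m → F) → F}
    (hq : IsQ (sympBilin m F) Q) (h : omegaGL Q ≤ preG e X) : E hq.toQ ≤ preS e X := by
  rw [← map_omegaGL hm hq, Subgroup.map_le_iff_le_comap]
  exact h

/-- **the bridge**, frame of helper383 -/
theorem E_le_pre [CharP F 2] (hm : 3 ≤ m) {e : T ≃* PSp m F} {X Y : Subgroup G} (hfac : Fac T X Y) {L : Subgroup G}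
    {Q : (Fin m ⊕ Fin m → F) → F} (hq : IsQ (sympBilin m F) Q) (h : omegaGL Q ≤ preG e L) :
    E hq.toQ ≤ (sd hm e hfac).pre L := E_le_preS hm hq h

/-- all in one: from the hypotheses of the boxes -/
theorem exists_sd [CharP F 2] (hm : 3 ≤ m) (e : T ≃* PSp m F) {X Y : Subgroup G} (hfac : Fac T X Y)
    {Q : (Fin m ⊕ Fin m → F) → F} (hQ : IsNondegenerateQuadraticForm Q)
    (hp : ∀ u v, QuadraticMap.polar Q u v = sympForm m F u v) (h : omegaGL Q ≤ preG e X) :
    ∃ (D : Sd T (sympBilin m F)) (hq : IsQ (sympBilin m F) Q), E hq.toQ ≤ D.pre X ∧ ∀ L, D.pre L = preS e L :=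
  ⟨sd hm e hfac, isQ hQ hp, E_le_pre hm hfac (isQ hQ hp) h, pre_eq hm e hfac⟩

/-- the type of the form: plus type for `IsPlusTypeOn Q ⊤` -/
theorem polar_toQ [CharP F 2] {Q : (Fin m ⊕ Fin m → F) → F} (hq : IsQ (sympBilin m F) Q) (u v : Fin m ⊕ Fin m → F) :
    QuadraticMap.polar hq.toQ u v = sympForm m F u v := hq.polar u v

end Cfsg.Agent.H242.Rg
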